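import Cfsg.Agent.H144.AH.Tr

/-!
# Characteristic two: no nonscalar `a, b` with all products of conjugates of `2`-power order (helper144, S2451)

* `k_zero` : `(u, a v) = (v, a u)` for all `u ⊥ v`, and the same for `b`;
* `even_main` : `a, b` are involutions, and `a` commutes with a conjugate of `b`.
-/

set_option autoImplicit false
set_option linter.unusedSectionVars false

namespace Cfsg.Agent.H144.AH

open Module Cfsg Cfsg.Agent.H955 Cfsg.Agent.H105.Sz Cfsg.Agent.H105.SzSp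

section quad

variable {F V : Type*} [Field F] [AddCommGroup V] [Module F V] [FiniteDimensional F V]
  {B : LinearMap.BilinForm F V}

/-- `(a - c)² = 0`: `a` has a totally isotropic pair of eigenvectors. -/
theorem exists_eig_pair (h : IsSp B) (hn : 4 ≤ finrank F V) {a : V ≃ₗ[F] V} (ha : a ∈ IsoB B) (hna : ¬ Scalar a)
    {c : F} (hc : c * c = 1) (haa : ∀ v, a v + a⁻¹ v = (2 * c) • v) :
    ∃ x y, Tp B x y ∧ a x = c • x ∧ a y = c • y := by
  let f : V →ₗ[F] V := (a : V →ₗ[F] V) - c • LinearMap.id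
  have hf : ∀ v, f v = a v - c • v := fun v => rfl
  have haa' : ∀ v, a (a v) = (2 * c) • a v - v := by
    intro v
    have h1 := haa (a v)
    rw [show a⁻¹ (a v) = v from a.symm_apply_apply v] at h1
    rw [← h1]; abel
  have hff : ∀ v, f (f v) = 0 := by
    intro v
    rw [hf (f v), hf v, map_sub, map_smul, haa', smul_sub, smul_smul, hc]
    module
  obtain ⟨y0, hy0⟩ : ∃ y, f y ≠ 0 := by
    by_contra hcon
    push Not at hcon
    exact hna ⟨c, fun v => sub_eq_zero.1 (by rw [← hf]; exact hcon v)⟩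
  have hle : LinearMap.range f ≤ LinearMap.ker f := by
    rintro _ ⟨v, rfl⟩
    exact hff v
  have h1 := LinearMap.finrank_range_add_finrank_ker f
  have h2 := Submodule.finrank_mono hle
  obtain ⟨y, hy, hy'⟩ := exists_notMem (W := Submodule.span F {f y0}) (W' := LinearMap.ker f) (by
    have h3 := finrank_span_single_le (F := F) (f y0)
    omega)
  have hy1 : a y = c • y := sub_eq_zero.1 (by rw [← hf]; exact hy)
  have hx1 : a (f y0) = c • f y0 := sub_eq_zero.1 (by rw [← hf]; exact hff y0)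
  refine ⟨f y0, y, ⟨indep_of_notMem hy0 hy', ?_⟩, hx1, hy1⟩
  have h3 := ha y0 y
  rw [hy1, map_smul, smul_eq_mul] at h3
  rw [hf, map_sub, map_smul, LinearMap.sub_apply, LinearMap.smul_apply, smul_eq_mul]
  linear_combination c * h3 - (B (a y0) y) * hc

end quad

section even

variable {F V : Type*} [Field F] [Finite F] [AddCommGroup V] [Module F V] [FiniteDimensional F V]
  {B : LinearMap.BilinForm F V} {p : ℕ} [hp : Fact p.Prime] [CharP F p] {a b : V ≃ₗ[F] V}

theorem neg_eq' (h2 : (2 : F) = 0) (x : F) : -x = x := by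
  rw [neg_eq_iff_add_eq_zero, ← two_mul, h2, zero_mul]

theorem neg_eqV (h2 : (2 : F) = 0) (x : V) : -x = x := by
  rw [← one_smul F x, ← neg_smul, neg_eq' h2]

/-- the mixed coefficient vanishes -/
theorem Hp.mixed [Nontrivial V] (h : IsSp B) (H : Hp B p a b) (h2 : (2 : F) = 0) (hn : (finrank F V : F) = 0)
    {u v x y : V} (huv : Tp B u v) (hxy : Tp B x y) : B v (a u) * B x (b y) + B u (a v) * B y (b x) = 0 := by
  obtain ⟨c0, c1, c2, hq⟩ := H.quad h huv hxy
  obtain ⟨e1, -, q1⟩ := hq 0 0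
  obtain ⟨e2, -, q2⟩ := hq 1 0
  obtain ⟨e3, -, q3⟩ := hq 0 1
  obtain ⟨e4, -, q4⟩ := hq 1 1
  rw [hn, mul_zero] at q1 q2 q3 q4
  linear_combination q2 + q3 - q4 - q1

theorem k_zero [Nontrivial V] (h : IsSp B) (H : Hp B p a b) (h2 : (2 : F) = 0) (hn : (finrank F V : F) = 0)
    (hn4 : 4 ≤ finrank F V) : ∀ u v, Tp B u v → B u (a v) = B v (a u) := by
  have key : ∀ u v x y, Tp B u v → Tp B x y → (B u (a v) + B v (a u)) * (B x (b y) + B y (b x)) = 0 := by
    intro u v x y huv hxy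
    have h3 := H.mixed h h2 hn huv hxy
    have h4 := H.mixed h h2 hn huv (hxy.symm h)
    linear_combination h3 + h4
  intro u v huv
  by_contra hne
  have h3 : B u (a v) + B v (a u) ≠ 0 := by
    intro h0
    exact hne ((eq_neg_of_add_eq_zero_left h0).trans (neg_eq' h2 _))
  -- so `k_b = 0`
  have hkb : ∀ x y, Tp B x y → B x (b y) + B y (b x) = 0 := fun x y hxy =>
    (mul_eq_zero.1 (key u v x y huv hxy)).resolve_left h3
  -- and `(x, b y) = 0`
  apply H.nb
  apply scalar_of_all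
  intro y
  by_cases hy : y = 0
  · exact ⟨0, by rw [hy]; simp⟩
  refine mul_of_perp h hn4 hy fun w hw => ?_
  have h4 := H.mixed h h2 hn huv hw
  have h5 := hkb y w hw
  have h6 : B y (b w) = - B w (b y) := eq_neg_of_add_eq_zero_left h5
  have h7 : (B u (a v) + B v (a u)) * B w (b y) = 0 := by
    rw [h6] at h4
    have h8 : B v (a u) * -B w (b y) = B v (a u) * B w (b y) := by rw [neg_eq' h2]
    rw [h8] at h4
    linear_combination h4
  exact (mul_eq_zero.1 h7).resolve_left h3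

/-- every element is a square -/
theorem exists_sq (h2 : (2 : F) = 0) (x : F) : ∃ s : F, s * s = x := by
  have hchar : ringChar F = 2 := by
    have h3 : (ringChar F) ∣ 2 := (ringChar.spec F 2).1 (by exact_mod_cast h2)
    rcases (Nat.dvd_prime Nat.prime_two).1 h3 with h4 | h4
    · exact absurd h4 (CharP.ringChar_ne_one)
    · exact h4
  obtain ⟨s, hs⟩ := FiniteField.isSquare_of_char_two hchar x
  exact ⟨s, hs.symm⟩

omit [Finite F] [FiniteDimensional F V] in
theorem kappa_ne (h : IsSp B) {a : V ≃ₗ[F] V} (ha : a ∈ IsoB B) [Nontrivial V] (h2 : (2 : F) = 0) {κ : F}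
    (hκ : ∀ v, a v + a⁻¹ v = κ • v) (h0 : κ ≠ 0) [FiniteDimensional F V] : ∃ v, B v (a v) ≠ 0 := by
  by_contra hcon
  push Not at hcon
  obtain ⟨v, hv⟩ := exists_ne (0 : V)
  have h3 := hκ v
  have h4 : a⁻¹ v = a v := by
    change a.symm v = a v
    rw [LinearEquiv.symm_apply_eq, sq_one h ha hcon]
  rw [h4, ← two_smul F, h2, zero_smul] at h3
  rcases smul_eq_zero.1 h3.symm with h5 | h5
  · exact h0 h5
  · exact hv h5

/-- both `κ ≠ 0`: impossible -/
theorem even_one [Nontrivial V] (h : IsSp B) (H : Hp B p a b) (h2 : (2 : F) = 0) {κ l : F}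
    (hκ : ∀ v, a v + a⁻¹ v = κ • v) (hl : ∀ v, b v + b⁻¹ v = l • v) : κ * l = 0 := by
  by_contra hne
  have hκ0 : κ ≠ 0 := left_ne_zero_of_mul hne
  have hl0 : l ≠ 0 := right_ne_zero_of_mul hne
  have norm : ∀ {a : V ≃ₗ[F] V}, (∃ v, B v (a v) ≠ 0) → ∃ v, B v (a v) = 1 := by
    rintro a ⟨v, hv⟩
    obtain ⟨s, hs⟩ := exists_sq h2 (B v (a v))⁻¹
    refine ⟨s • v, ?_⟩
    rw [map_smul, map_smul, map_smul, LinearMap.smul_apply, smul_eq_mul, smul_eq_mul, ← mul_assoc, hs,
      inv_mul_cancel₀ hv]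
  obtain ⟨v, hv⟩ := norm (kappa_ne h H.ha h2 hκ hκ0)
  obtain ⟨x, hx⟩ := norm (kappa_ne h H.hb h2 hl hl0)
  obtain ⟨g, hg, hgx, hgy⟩ := witt_pair h (indep_of_ne h (v := x) (w := b x) (by rw [hx]; exact one_ne_zero))
    (indep_of_ne h (v := v) (w := a v) (by rw [hv]; exact one_ne_zero)) (by rw [hx, hv])
  obtain ⟨c, -, -, -, h3⟩ := H.sgn hg
  have hgv : g⁻¹ v = x := by rw [← hgx]; exact g.symm_apply_apply x
  have hgav : g⁻¹ (a v) = b x := by rw [← hgy]; exact g.symm_apply_apply _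
  have hv0 : v ≠ 0 := by
    rintro rfl
    rw [map_zero, LinearMap.zero_apply] at hv
    exact zero_ne_one hv
  have haa : a (a v) = κ • a v - v := by
    have h1 := hκ (a v)
    rw [show a⁻¹ (a v) = v from a.symm_apply_apply v] at h1
    rw [← h1]; abel
  have hai : a⁻¹ v = κ • v - a v := by rw [← hκ v]; abel
  have hbi : b⁻¹ x = l • x - b x := by rw [← hl x]; abel
  have hbb : b⁻¹ (b x) = x := b.symm_apply_apply x
  have h4 := h3 v (κ * l - 2) hv0 (by
    rw [hgv, hgy, haa, hai, map_sub, map_smul, hgv, hgav, map_sub, map_smul, hbi, hbb, map_sub, map_smul, map_sub,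
      map_smul, hgx, hgy]
    module)
  rw [h2, zero_mul, sub_zero] at h4
  exact hne h4

/-- `κ ≠ 0`, `λ = 0` : impossible -/
theorem even_two [Nontrivial V] (h : IsSp B) (hn4 : 4 ≤ finrank F V) (H : Hp B p a b) (h2 : (2 : F) = 0) {κ : F}
    (hκ : ∀ v, a v + a⁻¹ v = κ • v) (hb : ∀ v, b v + b⁻¹ v = 0) (hka : ∀ u v, Tp B u v → B u (a v) = B v (a u)) :
    κ = 0 := by
  -- a singular vector
  obtain ⟨u0, hu0⟩ := exists_ne (0 : V)
  obtain ⟨v, hv0, hv⟩ : ∃ v, v ≠ 0 ∧ B v (a v) = 0 := by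
    obtain ⟨u1, hu1⟩ := exists_Tp h hn4 hu0
    by_cases hz : B u0 (a u0) = 0
    · exact ⟨u0, hu0, hz⟩
    obtain ⟨s, hs⟩ := exists_sq h2 (B u1 (a u1) / B u0 (a u0))
    refine ⟨u1 + s • u0, ((hu1.add h s).1).ne_zero 1, ?_⟩
    have h3 := hka u0 u1 hu1
    have h4 : s * s * B u0 (a u0) = B u1 (a u1) := by rw [hs, div_mul_cancel₀ _ hz]
    simp only [map_add, map_smul, LinearMap.add_apply, LinearMap.smul_apply, smul_eq_mul]
    rw [h3]
    linear_combination (B u1 (a u1) + s * B u1 (a u0)) * h2 + h4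
  obtain ⟨x, y, hxy, hbx, hby⟩ := exists_eig_pair h hn4 H.hb H.nb (c := 1) (one_mul 1) (fun v => by
    rw [hb, h2, zero_mul, zero_smul])
  rw [one_smul] at hbx hby
  have hai : a⁻¹ v = κ • v - a v := by rw [← hκ v]; abel
  have hbx' : b⁻¹ x = x := by
    change b.symm x = x
    rw [LinearEquiv.symm_apply_eq, hbx]
  have hby' : b⁻¹ y = y := by
    change b.symm y = y
    rw [LinearEquiv.symm_apply_eq, hby]
  by_cases hi : LinearIndependent F ![v, a v]
  · obtain ⟨g, hg, hgx, hgy⟩ := witt_pair h hxy.1 hi (by rw [hxy.2, hv])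
    obtain ⟨c, -, -, -, h3⟩ := H.sgn hg
    have hgv : g⁻¹ v = x := by rw [← hgx]; exact g.symm_apply_apply x
    have hgav : g⁻¹ (a v) = y := by rw [← hgy]; exact g.symm_apply_apply _
    have h4 := h3 v κ hv0 (by
      rw [hgv, hbx, hgx, hai, map_sub, map_smul, hgv, hgav, map_sub, map_smul, hbx', hby', map_sub, map_smul,
        hgx, hgy]
      abel)
    rw [h4, h2, zero_mul]
  · rw [LinearIndependent.pair_iff' hv0] at hi
    push Not at hi
    obtain ⟨m, hm⟩ := hi
    have hx0 : x ≠ 0 := hxy.1.ne_zero 0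
    obtain ⟨g, hg, hgx⟩ := witt_one h hx0 hv0
    obtain ⟨c, -, -, -, h3⟩ := H.sgn hg
    have hgv : g⁻¹ v = x := by rw [← hgx]; exact g.symm_apply_apply x
    have h4 := h3 v κ hv0 (by
      rw [hgv, hbx, hgx, hai, ← hm, map_sub, map_smul, map_smul, hgv, map_sub, map_smul, map_smul, hbx', map_sub,
        map_smul, map_smul, hgx]
      abel)
    rw [h4, h2, zero_mul]

/-- two involutions: `a` commutes with a conjugate of `b`. -/
theorem exists_comm_le (h : IsSp B) (h2 : (2 : F) = 0) {a b : V ≃ₗ[F] V} (ha : a ∈ IsoB B) (hb : b ∈ IsoB B)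
    (haa : ∀ v, a (a v) = v) (hbb : ∀ v, b (b v) = v)
    (hle : finrank F (LinearMap.range ((b : V →ₗ[F] V) - LinearMap.id)) ≤
      finrank F (LinearMap.range ((a : V →ₗ[F] V) - LinearMap.id))) :
    ∃ g ∈ IsoB B, ∀ v, a (g (b (g⁻¹ v))) = g (b (g⁻¹ (a v))) := by
  set M : V →ₗ[F] V := (a : V →ₗ[F] V) - LinearMap.id with hM
  set N : V →ₗ[F] V := (b : V →ₗ[F] V) - LinearMap.id with hN
  have hMv : ∀ v, M v = a v - v := fun v => rfl
  have hNv : ∀ v, N v = b v - v := fun v => rfl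
  -- the images are totally isotropic
  have hti : ∀ {a : V ≃ₗ[F] V}, a ∈ IsoB B → (∀ v, a (a v) = v) → ∀ u v, B (a u - u) (a v - v) = 0 := by
    intro a ha haa u v
    have h3 : B (a u) v = B u (a v) := by
      have h4 := ha u (a v)
      rw [haa] at h4
      exact h4
    simp only [map_sub, LinearMap.sub_apply]
    rw [ha, h3]
    linear_combination (B u v - B u (a v)) * h2
  let bN := Module.finBasis F (LinearMap.range N)
  let bM := Module.finBasis F (LinearMap.range M)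
  have hx : LinearIndependent F (fun i => (bN i : V)) :=
    bN.linearIndependent.map' (LinearMap.range N).subtype (Submodule.ker_subtype _)
  have hy : LinearIndependent F (fun i : Fin (finrank F (LinearMap.range N)) => (bM (Fin.castLE hle i) : V)) := by
    have h3 : LinearIndependent F (fun i => (bM i : V)) :=
      bM.linearIndependent.map' (LinearMap.range M).subtype (Submodule.ker_subtype _)
    exact h3.comp _ (Fin.castLE_injective hle)
  have hN0 : ∀ x ∈ LinearMap.range N, ∀ y ∈ LinearMap.range N, B x y = 0 := by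
    rintro _ ⟨u, rfl⟩ _ ⟨v, rfl⟩
    exact hti hb hbb u v
  have hM0 : ∀ x ∈ LinearMap.range M, ∀ y ∈ LinearMap.range M, B x y = 0 := by
    rintro _ ⟨u, rfl⟩ _ ⟨v, rfl⟩
    exact hti ha haa u v
  obtain ⟨g, hg, hgi⟩ := witt h _ _ hx hy (by
    intro i j
    rw [hN0 _ (bN i).2 _ (bN j).2, hM0 _ (bM _).2 _ (bM _).2])
  have hgN : ∀ x ∈ LinearMap.range N, g x ∈ LinearMap.range M := by
    intro x hx
    have h3 := bN.sum_repr ⟨x, hx⟩
    have h4 : ((∑ i, bN.repr ⟨x, hx⟩ i • bN i : LinearMap.range N) : V) = x := congrArg Subtype.val h3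
    rw [Submodule.coe_sum] at h4
    rw [← h4, map_sum]
    refine Submodule.sum_mem _ fun i _ => ?_
    rw [Submodule.coe_smul, map_smul, hgi]
    exact Submodule.smul_mem _ _ (bM _).2
  -- `a` fixes the vectors orthogonal to the range of `M`
  have hfix : ∀ {a : V ≃ₗ[F] V}, a ∈ IsoB B → (∀ v, a (a v) = v) → ∀ x, (∀ v, B x (a v - v) = 0) → a x = x := by
    intro a ha haa x hx
    have h3 : ∀ v, B (a x - x) v = 0 := by
      intro v
      have h4 := hx v
      have h5 : B (a x) v = B x (a v) := by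
        have h4 := ha x (a v)
        rw [haa] at h4
        exact h4
      rw [map_sub] at h4
      rw [map_sub, LinearMap.sub_apply, h5, h4]
    exact sub_eq_zero.1 (h.nd _ h3)
  have h3 : ∀ v, a (g (b v - v)) = g (b v - v) := fun v =>
    hfix ha haa _ fun w => hM0 _ (hgN _ ⟨v, rfl⟩) _ ⟨w, rfl⟩
  have h4 : ∀ v, b (g⁻¹ (a v - v)) = g⁻¹ (a v - v) := by
    intro v
    refine hfix hb hbb _ fun w => ?_
    rw [← hg, show g (g⁻¹ (a v - v)) = a v - v from g.apply_symm_apply _]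
    exact hM0 _ ⟨v, rfl⟩ _ (hgN _ ⟨w, rfl⟩)
  refine ⟨g, hg, fun v => ?_⟩
  have h5 : g (g⁻¹ v) = v := g.apply_symm_apply v
  have h6 := h3 (g⁻¹ v)
  rw [map_sub g, map_sub a, h5] at h6
  have h7 := h4 v
  rw [map_sub g⁻¹, map_sub b] at h7
  have h8 := congrArg (fun x => g x) h7
  simp only [map_sub] at h8
  rw [h5, show g (g⁻¹ (a v)) = a v from g.apply_symm_apply _] at h8
  have h9 : a (g (b (g⁻¹ v))) = g (b (g⁻¹ v)) - v + a v := by rw [← h6]; abel
  have h10 : g (b (g⁻¹ (a v))) = a v - v + g (b (g⁻¹ v)) := by rw [← h8]; abel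
  rw [h9, h10]
  abel

theorem exists_comm (h : IsSp B) (h2 : (2 : F) = 0) {a b : V ≃ₗ[F] V} (ha : a ∈ IsoB B) (hb : b ∈ IsoB B)
    (haa : ∀ v, a (a v) = v) (hbb : ∀ v, b (b v) = v) :
    ∃ g ∈ IsoB B, ∀ v, a (g (b (g⁻¹ v))) = g (b (g⁻¹ (a v))) := by
  rcases le_total (finrank F (LinearMap.range ((b : V →ₗ[F] V) - LinearMap.id)))
    (finrank F (LinearMap.range ((a : V →ₗ[F] V) - LinearMap.id))) with hle | hle
  · exact exists_comm_le h h2 ha hb haa hbb hle
  · obtain ⟨g, hg, h3⟩ := exists_comm_le h h2 hb ha hbb haa hle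
    refine ⟨g⁻¹, inv_mem hg, fun v => ?_⟩
    rw [inv_inv]
    have h4 := h3 (g v)
    rw [show g⁻¹ (g v) = v from g.symm_apply_apply v] at h4
    -- b (g (a v)) = g (a (g⁻¹ (b (g v))))
    rw [h4, show g⁻¹ (g (a (g⁻¹ (b (g v))))) = a (g⁻¹ (b (g v))) from g.symm_apply_apply _]

/-- **characteristic two** -/
theorem even_main [Nontrivial V] (h : IsSp B) (hn4 : 4 ≤ finrank F V) (H : Hp B p a b) (h2 : (2 : F) = 0) :
    (∀ v, a (a v) = v) ∧ (∀ v, b (b v) = v) ∧ ∃ g ∈ IsoB B, ∀ v, a (g (b (g⁻¹ v))) = g (b (g⁻¹ (a v))) := by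
  have hn : (finrank F V : F) = 0 := by
    obtain ⟨k, hk⟩ := h.even
    rw [hk, Nat.cast_add, ← two_mul, h2, zero_mul]
  have hka := k_zero h H h2 hn hn4
  have hkb := k_zero h H.symm h2 hn hn4
  obtain ⟨κ, hκ⟩ := quad_of_k h hn4 H.ha hka
  obtain ⟨l, hl⟩ := quad_of_k h hn4 H.hb hkb
  have hinv : ∀ {a : V ≃ₗ[F] V}, (∀ v, a v + a⁻¹ v = (0 : F) • v) → ∀ v, a (a v) = v := by
    intro a ha v
    have h3 := ha (a v)
    rw [show a⁻¹ (a v) = v from a.symm_apply_apply v, zero_smul] at h3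
    rw [eq_neg_of_add_eq_zero_left h3, neg_eqV h2]
  have h0 : κ = 0 ∧ l = 0 := by
    rcases mul_eq_zero.1 (even_one h H h2 hκ hl) with h3 | h3
    · refine ⟨h3, even_two h hn4 H.symm h2 hl (fun v => ?_) hkb⟩
      rw [hκ, h3, zero_smul]
    · refine ⟨even_two h hn4 H h2 hκ (fun v => ?_) hka, h3⟩
      rw [hl, h3, zero_smul]
  obtain ⟨rfl, rfl⟩ := h0
  exact ⟨hinv hκ, hinv hl, exists_comm h h2 H.ha H.hb (hinv hκ) (hinv hl)⟩

end even

end Cfsg.Agent.H144.AH
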