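import Cfsg.Agent.H144.AH.Even

/-!
# Odd characteristic: no nonscalar `a, b` with all products `±` a `p`-element (helper144 after helper445, S2451)
-/

set_option autoImplicit false
set_option linter.unusedSectionVars false

namespace Cfsg.Agent.H144.AH

open Module Cfsg Cfsg.Agent.H955 Cfsg.Agent.H105.Sz Cfsg.Agent.H105.SzSp

/-! ### The binary quadratic polynomial -/

section nz

variable {F : Type*} [Field F] [Finite F]

/-- a nondegenerate binary quadratic polynomial has a zero, first case -/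
theorem zero_one (h2 : (2 : F) ≠ 0) {c0 c1 c2 D1 D12 D2 : F} (hD : D12 * D12 ≠ 4 * (D1 * D2)) (h1 : D1 ≠ 0) :
    ∃ s t : F, c0 + s * c1 + t * c2 - (s * s * D1 + s * t * D12 + t * t * D2) = 0 := by
  classical
  have : Fintype F := Fintype.ofFinite F
  have hodd : Fintype.card F % 2 = 1 := by
    rcases Nat.mod_two_eq_zero_or_one (Fintype.card F) with h3 | h3
    · exfalso
      apply h2
      have h4 : ringChar F = 2 := (FiniteField.even_card_iff_char_two).2 h3
      have h5 : ((ringChar F : ℕ) : F) = 0 := ringChar.Nat.cast_ringChar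
      rw [h4] at h5
      exact_mod_cast h5
    · exact h3
  -- `X² = Δ t² + β t + γ`
  let Δ : F := D12 * D12 - 4 * (D1 * D2)
  let f : Polynomial F := Polynomial.X ^ 2
  let g : Polynomial F := Polynomial.C (-Δ) * Polynomial.X ^ 2 + Polynomial.C (2 * D12 * c1 - 4 * D1 * c2) * Polynomial.X +
    Polynomial.C (-(c1 * c1) - 4 * D1 * c0)
  have hΔ : -Δ ≠ 0 := neg_ne_zero.2 (sub_ne_zero.2 hD)
  obtain ⟨X, t, hXt⟩ := FiniteField.exists_root_sum_quadratic (R := F) (f := f) (g := g)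
    (Polynomial.degree_X_pow 2) (Polynomial.degree_quadratic hΔ) hodd
  have e : X ^ 2 + (-Δ * t ^ 2 + (2 * D12 * c1 - 4 * D1 * c2) * t + (-(c1 * c1) - 4 * D1 * c0)) = 0 := by
    have h3 : f.eval X = X ^ 2 := by simp [f]
    have h4 : g.eval t = -Δ * t ^ 2 + (2 * D12 * c1 - 4 * D1 * c2) * t + (-(c1 * c1) - 4 * D1 * c0) := by simp [g]
    rw [← h3, ← h4]
    exact hXt
  -- `X = 2 D1 s + D12 t - c1`
  have h4 : (4 : F) * D1 ≠ 0 := by
    have : (4 : F) = 2 * 2 := by norm_num
    rw [this]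
    exact mul_ne_zero (mul_ne_zero h2 h2) h1
  refine ⟨(X + c1 - D12 * t) / (2 * D1), t, ?_⟩
  have h5 : (2 : F) * D1 ≠ 0 := mul_ne_zero h2 h1
  have h6 : 2 * D1 * ((X + c1 - D12 * t) / (2 * D1)) = X + c1 - D12 * t := mul_div_cancel₀ _ h5
  set s := (X + c1 - D12 * t) / (2 * D1) with hs
  have h7 : X = 2 * D1 * s + D12 * t - c1 := by rw [h6]; ring
  have h8 : (4 * D1) * (c0 + s * c1 + t * c2 - (s * s * D1 + s * t * D12 + t * t * D2)) = 0 := by
    rw [h7] at e
    simp only [Δ] at e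
    linear_combination -e
  exact (mul_eq_zero.1 h8).resolve_left h4

theorem zero_all (h2 : (2 : F) ≠ 0) {c0 c1 c2 D1 D12 D2 : F} (hD : D12 * D12 ≠ 4 * (D1 * D2)) :
    ∃ s t : F, c0 + s * c1 + t * c2 - (s * s * D1 + s * t * D12 + t * t * D2) = 0 := by
  by_cases h1 : D1 = 0
  · by_cases h3 : D2 = 0
    · subst h1 h3
      have h4 : D12 ≠ 0 := by
        rintro rfl
        apply hD
        ring
      refine ⟨-(c0 + ((c1 + 1) / D12) * c2) / (-1), (c1 + 1) / D12, ?_⟩
      field_simp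
      ring
    · obtain ⟨t, s, hts⟩ := zero_one h2 (c0 := c0) (c1 := c2) (c2 := c1) (D1 := D2) (D12 := D12) (D2 := D1)
        (by rw [mul_comm D2]; exact hD) h3
      exact ⟨s, t, by rw [← hts]; ring⟩
  · exact zero_one h2 hD h1

/-- **the NZ lemma** (helper445) -/
theorem nz (h2 : (2 : F) ≠ 0) {c0 c1 c2 D1 D12 D2 n : F} (H : ∀ s t : F, ∃ c : F, (c = 1 ∨ c = -1) ∧
      c0 + s * c1 + t * c2 - (s * s * D1 + s * t * D12 + t * t * D2) = c * n) : D12 * D12 = 4 * (D1 * D2) := by
  by_cases hn : n = 0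
  · subst hn
    obtain ⟨e1, -, q1⟩ := H 0 0
    obtain ⟨e2, -, q2⟩ := H 1 0
    obtain ⟨e3, -, q3⟩ := H (-1) 0
    obtain ⟨e4, -, q4⟩ := H 0 1
    obtain ⟨e5, -, q5⟩ := H 0 (-1)
    obtain ⟨e6, -, q6⟩ := H 1 1
    rw [mul_zero] at q1 q2 q3 q4 q5 q6
    have h3 : 2 * D1 = 0 := by linear_combination 2 * q1 - q2 - q3
    have h4 : D1 = 0 := (mul_eq_zero.1 h3).resolve_left h2
    have h5 : D12 = 0 := by linear_combination q2 + q4 - q6 - q1
    rw [h4, h5]
    ring
  · by_contra hD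
    obtain ⟨s, t, hst⟩ := zero_all h2 (c0 := c0) (c1 := c1) (c2 := c2) hD
    obtain ⟨c, hc, h3⟩ := H s t
    rw [hst] at h3
    have hc0 : c ≠ 0 := by
      rcases hc with rfl | rfl
      · exact one_ne_zero
      · exact neg_ne_zero.2 one_ne_zero
    exact (mul_ne_zero hc0 hn) h3.symm

end nz

section odd

variable {F V : Type*} [Field F] [Finite F] [AddCommGroup V] [Module F V] [FiniteDimensional F V]
  {B : LinearMap.BilinForm F V} {p : ℕ} [hp : Fact p.Prime] [CharP F p] {a b : V ≃ₗ[F] V}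

/-- **(W)** -/
theorem Hp.W [Nontrivial V] (h : IsSp B) (H : Hp B p a b) (h2 : (2 : F) ≠ 0) {u v x y : V} (huv : Tp B u v)
    (hxy : Tp B x y) : (B v (a u) * B x (b y) + B u (a v) * B y (b x)) * (B v (a u) * B x (b y) + B u (a v) * B y (b x)) =
      4 * (B x (b x) * B u (a u) * (B y (b y) * B v (a v))) := by
  obtain ⟨c0, c1, c2, hq⟩ := H.quad h huv hxy
  exact nz h2 hq

/-- if `q_a ≠ 0` then `q_b` has rank `≤ 1` on all totally isotropic planes -/
theorem Hp.rk [Nontrivial V] (h : IsSp B) (hn4 : 4 ≤ finrank F V) (H : Hp B p a b) (h2 : (2 : F) ≠ 0) {u : V}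
    (hu : B u (a u) ≠ 0) {x y : V} (hxy : Tp B x y) :
    (B x (b y) + B y (b x)) * (B x (b y) + B y (b x)) = 4 * (B x (b x) * B y (b y)) := by
  have hu0 : u ≠ 0 := by
    rintro rfl
    exact hu (by simp)
  obtain ⟨v, hv⟩ := exists_Tp h hn4 hu0
  have w0 := H.W h h2 hv hxy
  have w1 := H.W h h2 (hv.add h 1) hxy
  have w2 := H.W h h2 (hv.add h (-1)) hxy
  simp only [map_add, map_smul, LinearMap.add_apply, LinearMap.smul_apply, smul_eq_mul] at w1 w2
  have h3 : (2 * (B u (a u) * B u (a u))) * ((B x (b y) + B y (b x)) * (B x (b y) + B y (b x)) -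
      4 * (B x (b x) * B y (b y))) = 0 := by
    linear_combination w1 + w2 - 2 * w0
  have h4 : (2 * (B u (a u) * B u (a u))) ≠ 0 := mul_ne_zero h2 (mul_ne_zero hu hu)
  exact sub_eq_zero.1 ((mul_eq_zero.1 h3).resolve_left h4)

/-- `k_a k_b = 0` -/
theorem Hp.kk [Nontrivial V] (h : IsSp B) (hn4 : 4 ≤ finrank F V) (H : Hp B p a b) (h2 : (2 : F) ≠ 0)
    {u v x y : V} (huv : Tp B u v) (hxy : Tp B x y) : (B u (a v) - B v (a u)) * (B x (b y) - B y (b x)) = 0 := by
  have w1 := H.W h h2 huv hxy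
  have w2 := H.W h h2 huv (hxy.symm h)
  apply mul_self_eq_zero.1
  by_cases hqa : ∃ u, B u (a u) ≠ 0
  · obtain ⟨u', hu'⟩ := hqa
    by_cases hqb : ∃ u, B u (b u) ≠ 0
    · obtain ⟨x', hx'⟩ := hqb
      have r1 := H.rk h hn4 h2 hu' hxy
      have r2 := H.symm.rk h hn4 h2 hx' huv
      set A11 := B u (a u)
      set A22 := B v (a v)
      set A12 := B u (a v)
      set A21 := B v (a u)
      set B11 := B x (b x)
      set B22 := B y (b y)
      set B12 := B x (b y)
      set B21 := B y (b x)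
      linear_combination 2 * w1 + 2 * w2 - (A12 + A21) * (A12 + A21) * r1 - 4 * (B11 * B22) * r2
    · push Not at hqb
      rw [hqb x, hqb y] at w1 w2
      have w1' := mul_self_eq_zero.1 (w1.trans (by ring))
      have w2' := mul_self_eq_zero.1 (w2.trans (by ring))
      have h3 : (B u (a v) - B v (a u)) * (B x (b y) - B y (b x)) = 0 := by linear_combination w2' - w1'
      rw [h3, mul_zero]
  · push Not at hqa
    rw [hqa u, hqa v] at w1 w2
    have w1' := mul_self_eq_zero.1 (w1.trans (by ring))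
    have w2' := mul_self_eq_zero.1 (w2.trans (by ring))
    have h3 : (B u (a v) - B v (a u)) * (B x (b y) - B y (b x)) = 0 := by linear_combination w2' - w1'
    rw [h3, mul_zero]

theorem Hp.dich [Nontrivial V] (h : IsSp B) (hn4 : 4 ≤ finrank F V) (H : Hp B p a b) (h2 : (2 : F) ≠ 0) :
    (∀ u v, Tp B u v → B u (a v) = B v (a u)) ∨ (∀ x y, Tp B x y → B x (b y) = B y (b x)) := by
  by_contra hcon
  push Not at hcon
  obtain ⟨⟨u, v, huv, h3⟩, x, y, hxy, h4⟩ := hcon
  rcases mul_eq_zero.1 (H.kk h hn4 h2 huv hxy) with h5 | h5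
  · exact h3 (sub_eq_zero.1 h5)
  · exact h4 (sub_eq_zero.1 h5)

omit [Finite F] in
theorem scalar_of_inv (h2 : (2 : F) ≠ 0) {b : V ≃ₗ[F] V} {l : F} (hl : ∀ v, b v + b⁻¹ v = l • v)
    (hbb : ∀ v, b (b v) = v) : Scalar b := by
  refine ⟨2⁻¹ * l, fun v => ?_⟩
  have h3 : b⁻¹ v = b v := by
    change b.symm v = b v
    rw [LinearEquiv.symm_apply_eq, hbb]
  have h4 := hl v
  rw [h3, ← two_smul F] at h4
  rw [mul_smul, ← h4, smul_smul, inv_mul_cancel₀ h2, one_smul]

/-- **`q_b = 0`: impossible** -/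
theorem odd_two [Nontrivial V] (h : IsSp B) (hn4 : 4 ≤ finrank F V) (H : Hp B p a b) (h2 : (2 : F) ≠ 0)
    (hqb : ∀ v, B v (b v) = 0) : False := by
  have hbb := sq_one h H.hb hqb
  have hka : ∀ u v, Tp B u v → B u (a v) = B v (a u) := by
    rcases H.dich h hn4 h2 with h3 | h3
    · exact h3
    · exfalso
      obtain ⟨l, hl⟩ := quad_of_k h hn4 H.hb h3
      exact H.nb (scalar_of_inv h2 hl hbb)
  obtain ⟨κ, hκ⟩ := quad_of_k h hn4 H.ha hka
  have hqa : ∃ v, B v (a v) ≠ 0 := by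
    by_contra hcon
    push Not at hcon
    exact H.na (scalar_of_inv h2 hκ (sq_one h H.ha hcon))
  obtain ⟨v, hv⟩ := hqa
  have hbi : ∀ v, b⁻¹ v = b v := fun v => by
    change b.symm v = b v
    rw [LinearEquiv.symm_apply_eq, hbb]
  -- the eigenspaces of `b`
  have hpos : ∀ e : F, (e = 1 ∨ e = -1) → ∃ x, x ≠ 0 ∧ b x = e • x := by
    intro e he
    have hee : e * e = 1 := by rcases he with rfl | rfl <;> ring
    by_contra hcon
    push Not at hcon
    apply H.nb
    refine ⟨-e, fun v => ?_⟩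
    by_contra hne
    refine hcon (v + e • b v) (fun h0 => hne ?_) ?_
    · have h3 : e • b v = -v := eq_neg_of_add_eq_zero_right h0
      calc b v = (e * e) • b v := by rw [hee, one_smul]
        _ = e • (e • b v) := by rw [smul_smul]
        _ = -e • v := by rw [h3, smul_neg, neg_smul]
    · rw [map_add, map_smul, hbb, smul_add, smul_smul, hee, one_smul]
      abel
  -- `κ = 2 c`
  have hκ2 : ∃ c : F, (c = 1 ∨ c = -1) ∧ κ = 2 * c := by
    obtain ⟨x, hx0, hx⟩ := hpos 1 (Or.inl rfl)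
    rw [one_smul] at hx
    obtain ⟨y', hy'⟩ : ∃ y, B x y ≠ 0 := by
      by_contra hcon
      push Not at hcon
      exact hx0 (h.nd x hcon)
    have h3 : B x (b y') = B x y' := by
      conv_lhs => rw [← hx]
      exact H.hb x y'
    have h4 : B x (y' + b y') = 2 * B x y' := by rw [map_add, h3]; ring
    have h5 : 2 * B x y' ≠ 0 := mul_ne_zero h2 hy'
    let y := (B v (a v) / (2 * B x y')) • (y' + b y')
    have hby : b y = y := by
      change b ((B v (a v) / (2 * B x y')) • (y' + b y')) = (B v (a v) / (2 * B x y')) • (y' + b y')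
      rw [map_smul, map_add, hbb, add_comm]
    have hxy : B x y = B v (a v) := by
      change B x ((B v (a v) / (2 * B x y')) • (y' + b y')) = _
      rw [map_smul, h4, smul_eq_mul, div_mul_cancel₀ _ h5]
    obtain ⟨g, hg, hgx, hgy⟩ := witt_pair h (indep_of_ne h (v := x) (w := y) (by rw [hxy]; exact hv))
      (indep_of_ne h (v := v) (w := a v) hv) hxy
    obtain ⟨c, hc, -, -, h6⟩ := H.sgn hg
    refine ⟨c, hc, ?_⟩
    have hgv : g⁻¹ v = x := by rw [← hgx]; exact g.symm_apply_apply x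
    have hgav : g⁻¹ (a v) = y := by rw [← hgy]; exact g.symm_apply_apply _
    have hv0 : v ≠ 0 := by
      rintro rfl
      exact hv (by simp)
    have hai : a⁻¹ v = κ • v - a v := by rw [← hκ v]; abel
    refine h6 v κ hv0 ?_
    rw [hgv, hx, hgx, hai, map_sub, map_smul, hgv, hgav, map_sub, map_smul, hbi, hbi, hx, hby, map_sub, map_smul,
      hgx, hgy]
    abel
  obtain ⟨c, hc, rfl⟩ := hκ2
  have hcc : c * c = 1 := by rcases hc with rfl | rfl <;> ring
  have hc0 : c ≠ 0 := left_ne_zero_of_mul_eq_one hcc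
  obtain ⟨u1, u2, hT, hu1, hu2⟩ := exists_eig_pair h hn4 H.ha H.na hcc hκ
  obtain ⟨x, hx0, hx⟩ := hpos (-1) (Or.inr rfl)
  obtain ⟨y, hy0, hy⟩ := hpos 1 (Or.inl rfl)
  rw [one_smul] at hy
  rw [neg_smul, one_smul] at hx
  have hxy : Tp B x y := by
    refine ⟨?_, ?_⟩
    · rw [LinearIndependent.pair_iff]
      intro s t hst
      have h3 := congrArg (fun w => b w) hst
      simp only [map_add, map_smul, map_zero, hx, hy] at h3
      have h4 : (2 * s) • x = 0 := by
        have : (2 * s) • x = (s • x + t • y) - (s • -x + t • y) := by module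
        rw [this, hst, h3, sub_zero]
      have h5 : (2 * t) • y = 0 := by
        have : (2 * t) • y = (s • x + t • y) + (s • -x + t • y) := by module
        rw [this, hst, h3, add_zero]
      refine ⟨?_, ?_⟩
      · have := (smul_eq_zero.1 h4).resolve_right hx0
        exact (mul_eq_zero.1 this).resolve_left h2
      · have := (smul_eq_zero.1 h5).resolve_right hy0
        exact (mul_eq_zero.1 this).resolve_left h2
    · have h3 := H.hb x y
      rw [hx, hy, map_neg, LinearMap.neg_apply] at h3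
      have h4 : 2 * B x y = 0 := by linear_combination -h3
      exact (mul_eq_zero.1 h4).resolve_left h2
  obtain ⟨g, hg, hgx, hgy⟩ := witt_pair h hxy.1 hT.1 (by rw [hxy.2, hT.2])
  obtain ⟨e, -, -, h6, -⟩ := H.sgn hg
  have hgu1 : g⁻¹ u1 = x := by rw [← hgx]; exact g.symm_apply_apply x
  have hgu2 : g⁻¹ u2 = y := by rw [← hgy]; exact g.symm_apply_apply _
  have h7 := h6 u1 (-c) (hT.1.ne_zero 0) (by rw [hgu1, hx, map_neg, map_neg, hgx, hu1, neg_smul])
  have h8 := h6 u2 c (hT.1.ne_zero 1) (by rw [hgu2, hy, hgy, hu2])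
  rw [← h8] at h7
  have h9 : 2 * c = 0 := by linear_combination -h7
  exact (mul_ne_zero h2 hc0) h9

end odd

end Cfsg.Agent.H144.AH
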