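import Cfsg.Agent.H144.AH.Odd

/-!
# Odd characteristic, `q_a ≠ 0`, `q_b ≠ 0` (helper144 after helper445, S2451)

* `Hp.transv` : if `q_a ≠ 0`, `q_b ≠ 0` and `(u, a v) = (v, a u)` for `u ⊥ v`, then `a` is `±` a transvection;
* `odd_one` : this is impossible;
* `odd_main`.
-/

set_option autoImplicit false
set_option linter.unusedSectionVars false

namespace Cfsg.Agent.H144.AH

open Module Cfsg Cfsg.Agent.H955 Cfsg.Agent.H105.Sz Cfsg.Agent.H105.SzSp

section odd

variable {F V : Type*} [Field F] [Finite F] [AddCommGroup V] [Module F V] [FiniteDimensional F V]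
  {B : LinearMap.BilinForm F V} {p : ℕ} [hp : Fact p.Prime] [CharP F p] {a b : V ≃ₗ[F] V}

/-- the vectors orthogonal to `u`, `a u` are eigenvectors -/
theorem Hp.eigv [Nontrivial V] (h : IsSp B) (hn4 : 4 ≤ finrank F V) (H : Hp B p a b) (h2 : (2 : F) ≠ 0)
    (hka : ∀ u v, Tp B u v → B u (a v) = B v (a u)) {x : V} (hx : B x (b x) ≠ 0) {u : V} (hu : B u (a u) ≠ 0)
    {v : V} (h3 : B u v = 0) (h4 : B (a u) v = 0) : ∃ l : F, a v = l • v := by
  by_cases hv0 : v = 0
  · exact ⟨0, by rw [hv0]; simp⟩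
  have hT : Tp B u v := by
    refine ⟨?_, h3⟩
    rw [LinearIndependent.pair_iff]
    intro s t hst
    have h5 := congrArg (fun w => B (a u) w) hst
    simp only [map_add, map_smul, map_zero, h4, mul_zero, add_zero, smul_eq_mul] at h5
    have h6 : B (a u) u ≠ 0 := by
      rw [h.swap]
      exact neg_ne_zero.2 hu
    have h7 : s = 0 := (mul_eq_zero.1 h5).resolve_right h6
    rw [h7, zero_smul, zero_add] at hst
    exact ⟨h7, (smul_eq_zero.1 hst).resolve_right hv0⟩
  have h5 : B v (a u) = 0 := by rw [h.swap, h4, neg_zero]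
  have h6 : B u (a v) = 0 := by rw [hka u v hT, h5]
  have h7 := H.symm.rk h hn4 h2 hx hT
  rw [h5, h6, add_zero, mul_zero] at h7
  have h44 : (4 : F) ≠ 0 := by
    have : (4 : F) = 2 * 2 := by norm_num
    rw [this]
    exact mul_ne_zero h2 h2
  have h8 : B v (a v) = 0 := by
    have h9 := (mul_eq_zero.1 h7.symm).resolve_left h44
    exact (mul_eq_zero.1 h9).resolve_left hu
  refine mul_of_perp h hn4 hv0 fun w hw => ?_
  have h9 := H.symm.rk h hn4 h2 hx hw
  rw [h8, zero_mul, mul_zero] at h9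
  have h10 := mul_self_eq_zero.1 h9
  have h11 := hka v w hw
  have h12 : 2 * B w (a v) = 0 := by linear_combination h10 - h11
  exact (mul_eq_zero.1 h12).resolve_left h2

/-- **`a` is a transvection up to sign** -/
theorem Hp.transv [Nontrivial V] (h : IsSp B) (hn4 : 4 ≤ finrank F V) (H : Hp B p a b) (h2 : (2 : F) ≠ 0)
    (hka : ∀ u v, Tp B u v → B u (a v) = B v (a u)) {x : V} (hx : B x (b x) ≠ 0) {u : V} (hu : B u (a u) ≠ 0) :
    ∃ (w : V) (l c' : F), w ≠ 0 ∧ l * l = 1 ∧ c' ≠ 0 ∧ ∀ v, a v = l • v + (c' * B w v) • w := by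
  obtain ⟨κ, hκ⟩ := quad_of_k h hn4 H.ha hka
  obtain ⟨δ, hδ⟩ : ∃ δ, δ = B u (a u) := ⟨_, rfl⟩
  rw [← hδ] at hu
  have hau : B (a u) u = -δ := by rw [h.swap, hδ]
  let al : V → F := fun v => -(B (a u) v) / δ
  let be : V → F := fun v => B u v / δ
  let pr : V → V := fun v => v - al v • u - be v • a u
  have hal : ∀ v, B (a u) v = -(al v * δ) := fun v => by
    change B (a u) v = -(-(B (a u) v) / δ * δ)
    rw [div_mul_cancel₀ _ hu, neg_neg]
  have hbe : ∀ v, B u v = be v * δ := fun v => by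
    change B u v = B u v / δ * δ
    rw [div_mul_cancel₀ _ hu]
  have pr1 : ∀ v, B u (pr v) = 0 := by
    intro v
    change B u (v - al v • u - be v • a u) = 0
    rw [map_sub, map_sub, map_smul, map_smul, h.alt, ← hδ, hbe v, smul_zero, smul_eq_mul]
    ring
  have pr2 : ∀ v, B (a u) (pr v) = 0 := by
    intro v
    change B (a u) (v - al v • u - be v • a u) = 0
    rw [map_sub, map_sub, map_smul, map_smul, h.alt, hau, hal v, smul_zero, smul_eq_mul]
    ring
  have hv : ∀ v, v = al v • u + be v • a u + pr v := fun v => by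
    change v = al v • u + be v • a u + (v - al v • u - be v • a u)
    abel
  -- a scalar on `S`
  let S : Submodule F V := LinearMap.ker (B u) ⊓ LinearMap.ker (B (a u))
  have hS : ∀ v, v ∈ S ↔ B u v = 0 ∧ B (a u) v = 0 := fun v => Iff.rfl
  have heig : ∀ v ∈ S, ∃ l : F, a v = l • v := fun v hv => H.eigv h hn4 h2 hka hx (by rw [← hδ]; exact hu) hv.1 hv.2
  have hSinv : ∀ v ∈ S, (a : V →ₗ[F] V) v ∈ S := by
    intro v hv
    obtain ⟨l, hl⟩ := heig v hv
    change a v ∈ S
    rw [hl]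
    exact S.smul_mem _ hv
  obtain ⟨l, hl⟩ := scalar_of_all' (a := (a : V →ₗ[F] V).restrict hSinv) (fun v => by
    obtain ⟨l, hl⟩ := heig v.1 v.2
    exact ⟨l, Subtype.ext hl⟩)
  have hl' : ∀ v ∈ S, a v = l • v := fun v hv => congrArg Subtype.val (hl ⟨v, hv⟩)
  have hprS : ∀ v, pr v ∈ S := fun v => ⟨pr1 v, pr2 v⟩
  -- a hyperbolic pair in `S`
  obtain ⟨x1, -, hx1⟩ := exists_notMem (W := Submodule.span F {u, a u}) (W' := (⊤ : Submodule F V)) (by
    rw [finrank_top]
    have := finrank_span_pair_le (F := F) u (a u)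
    omega)
  have hv1 : pr x1 ≠ 0 := by
    intro h0
    apply hx1
    rw [hv x1, h0, add_zero]
    exact Submodule.add_mem _ (Submodule.smul_mem _ _ (Submodule.subset_span (by simp)))
      (Submodule.smul_mem _ _ (Submodule.subset_span (by simp)))
  obtain ⟨x2, hx2⟩ : ∃ x2, B (pr x1) x2 ≠ 0 := by
    by_contra hcon
    push Not at hcon
    exact hv1 (h.nd _ hcon)
  have h12 : B (pr x1) (pr x2) ≠ 0 := by
    have e1 : B (pr x1) u = 0 := by rw [h.swap, pr1, neg_zero]
    have e2 : B (pr x1) (a u) = 0 := by rw [h.swap, pr2, neg_zero]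
    have e3 := congrArg (fun w => B (pr x1) w) (hv x2)
    simp only [map_add, map_smul, e1, e2, smul_zero, zero_add] at e3
    rw [← e3]
    exact hx2
  have hll : l * l = 1 := by
    have h3 := H.ha (pr x1) (pr x2)
    rw [hl' _ (hprS x1), hl' _ (hprS x2), map_smul, map_smul, LinearMap.smul_apply, smul_eq_mul, smul_eq_mul] at h3
    have h4 : (l * l - 1) * B (pr x1) (pr x2) = 0 := by linear_combination h3
    exact sub_eq_zero.1 ((mul_eq_zero.1 h4).resolve_right h12)
  have hκl : κ = 2 * l := by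
    have h3 : a⁻¹ (pr x1) = l • pr x1 := by
      change a.symm (pr x1) = _
      rw [LinearEquiv.symm_apply_eq, map_smul, hl' _ (hprS x1), smul_smul, hll, one_smul]
    have h4 := hκ (pr x1)
    rw [h3, hl' _ (hprS x1), ← add_smul] at h4
    have h5 := smul_left_injective F hv1 h4
    rw [← h5, two_mul]
  have haau : a (a u) = (2 * l) • a u - u := by
    have h1 := hκ (a u)
    rw [show a⁻¹ (a u) = u from a.symm_apply_apply u, hκl] at h1
    rw [← h1]; abel
  refine ⟨a u - l • u, l, -δ⁻¹, ?_, hll, neg_ne_zero.2 (inv_ne_zero hu), fun v => ?_⟩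
  · intro h0
    have h3 : B u (a u - l • u) = 0 := by rw [h0, map_zero]
    rw [map_sub, map_smul, h.alt, smul_zero, sub_zero, ← hδ] at h3
    exact hu h3
  · have h3 : B (a u - l • u) v = -(al v * δ) - l * (be v * δ) := by
      rw [map_sub, map_smul, LinearMap.sub_apply, LinearMap.smul_apply, hal v, hbe v, smul_eq_mul]
    have h4 : -δ⁻¹ * B (a u - l • u) v = al v + l * be v := by
      rw [h3]
      field_simp
      ring
    rw [h4]
    have h5 : a v = al v • a u + be v • ((2 * l) • a u - u) + l • pr v := by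
      conv_lhs => rw [hv v]
      rw [map_add, map_add, map_smul, map_smul, haau, hl' _ (hprS v)]
    rw [h5]
    have h6 : pr v = v - al v • u - be v • a u := rfl
    rw [h6]
    have h7 : l • l • u = u := by rw [smul_smul, hll, one_smul]
    have h8 : (l * be v) • (l • u) = be v • u := by
      rw [mul_comm, mul_smul, h7]
    have h9 : (al v + l * be v) • (a u - l • u) = (al v) • a u + (l * be v) • a u - al v • (l • u) - be v • u := by
      rw [smul_sub, add_smul, add_smul, h8]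
      abel
    rw [h9]
    module

/-- the two hyperplanes have a common vector -/
theorem exists_two_perp (h : IsSp B) (hn4 : 4 ≤ finrank F V) {w w' : V} (hw : w ≠ 0) (hw' : w' ≠ 0) :
    ∃ v, v ≠ 0 ∧ B w v = 0 ∧ B w' v = 0 := by
  have h1 := finrank_ker h hw
  have h2 := finrank_ker h hw'
  have h3 := Submodule.finrank_sup_add_finrank_inf_eq (LinearMap.ker (B w)) (LinearMap.ker (B w'))
  have h4 := Submodule.finrank_le (LinearMap.ker (B w) ⊔ LinearMap.ker (B w'))
  have h5 : (LinearMap.ker (B w) ⊓ LinearMap.ker (B w')) ≠ ⊥ := by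
    intro h0
    rw [h0, finrank_bot] at h3
    omega
  obtain ⟨v, hv, hv0⟩ := Submodule.exists_mem_ne_zero_of_ne_bot h5
  exact ⟨v, hv0, hv.1, hv.2⟩

/-- **`q_a ≠ 0`, `q_b ≠ 0`: impossible** -/
theorem odd_one [Nontrivial V] (h : IsSp B) (hn4 : 4 ≤ finrank F V) (H : Hp B p a b) (h2 : (2 : F) ≠ 0)
    (hka : ∀ u v, Tp B u v → B u (a v) = B v (a u)) {x : V} (hx : B x (b x) ≠ 0) {u : V} (hu : B u (a u) ≠ 0) :
    False := by
  obtain ⟨w, l, c', hw0, hll, hc', haw⟩ := H.transv h hn4 h2 hka hx hu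
  have hww : a w = l • w := by rw [haw, h.alt, mul_zero, zero_smul, add_zero]
  have hl0 : l ≠ 0 := left_ne_zero_of_mul_eq_one hll
  obtain ⟨N, hN⟩ : ∃ N : F, N = (finrank F V : F) := ⟨_, rfl⟩
  obtain ⟨T, hT⟩ : ∃ T : F, T = LinearMap.trace F V (b : V →ₗ[F] V) := ⟨_, rfl⟩
  -- the trace
  have htr : ∀ u' : V, u' ≠ 0 → ∃ (g : V ≃ₗ[F] V) (c : F), g ∈ IsoB B ∧ g u' = w ∧ (c = 1 ∨ c = -1) ∧
      l * T + c' * B u' (b u') = c * N ∧ (∀ (v : V) (μ : F), v ≠ 0 → a (g (b (g⁻¹ v))) = μ • v → μ = c) := by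
    intro u' hu'
    obtain ⟨g, hg, hgu⟩ := witt_one h hu' hw0
    obtain ⟨c, hc, h3, h4, -⟩ := H.sgn hg
    refine ⟨g, c, hg, hgu, hc, ?_, h4⟩
    have hgw : g⁻¹ w = u' := by rw [← hgu]; exact g.symm_apply_apply u'
    have e : (a : V →ₗ[F] V) ∘ₗ ((g * b * g⁻¹ : V ≃ₗ[F] V) : V →ₗ[F] V) =
        l • ((g * b * g⁻¹ : V ≃ₗ[F] V) : V →ₗ[F] V) +
          c' • (((B w) ∘ₗ ((g * b * g⁻¹ : V ≃ₗ[F] V) : V →ₗ[F] V)).smulRight w) := by
      ext v
      change a ((g * b * g⁻¹ : V ≃ₗ[F] V) v) = l • (g * b * g⁻¹ : V ≃ₗ[F] V) v + c' • (B w ((g * b * g⁻¹ : V ≃ₗ[F] V) v) • w)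
      rw [haw, smul_smul]
    have e2 : LinearMap.trace F V ((g * b * g⁻¹ : V ≃ₗ[F] V) : V →ₗ[F] V) = T := by
      have e3 : ((g * b * g⁻¹ : V ≃ₗ[F] V) : V →ₗ[F] V) = g.conj (b : V →ₗ[F] V) := rfl
      rw [e3, LinearMap.trace_conj', hT]
    rw [e, map_add, map_smul, map_smul, LinearMap.trace_smulRight, e2] at h3
    have e4 : ((B w) ∘ₗ ((g * b * g⁻¹ : V ≃ₗ[F] V) : V →ₗ[F] V)) w = B u' (b u') := by
      change B w (g (b (g⁻¹ w))) = _
      rw [hgw]
      conv_lhs => rw [← hgu]
      exact hg _ _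
    rw [e4, smul_eq_mul, smul_eq_mul] at h3
    rw [h3, hN]
  -- a singular vector of `q_b`
  obtain ⟨δ, hδ⟩ : ∃ δ, δ = B x (b x) := ⟨_, rfl⟩
  rw [← hδ] at hx
  have hδ' : B x (b x) ≠ 0 := by rw [← hδ]; exact hx
  have hx0 : x ≠ 0 := by
    rintro rfl
    exact hδ' (by simp)
  have h2δ : 2 * δ ≠ 0 := mul_ne_zero h2 hx
  obtain ⟨y0, hy00, hy0⟩ : ∃ y0, y0 ≠ 0 ∧ B y0 (b y0) = 0 := by
    obtain ⟨v, hv⟩ := exists_Tp h hn4 hx0
    obtain ⟨s, hs⟩ : ∃ s, s = B x (b v) + B v (b x) := ⟨_, rfl⟩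
    have h3 := H.rk h hn4 h2 hu hv
    rw [← hs, ← hδ] at h3
    obtain ⟨r, hr⟩ : ∃ r, r * (2 * δ) + s = 0 := ⟨-s / (2 * δ), by rw [div_mul_cancel₀ _ h2δ, neg_add_cancel]⟩
    refine ⟨v + r • x, ((hv.add h r).1).ne_zero 1, ?_⟩
    simp only [map_add, map_smul, LinearMap.add_apply, LinearMap.smul_apply, smul_eq_mul]
    rw [← hδ]
    have h44 : (4 : F) * δ ≠ 0 := by
      have : (4 : F) = 2 * 2 := by norm_num
      rw [this, mul_assoc]
      exact mul_ne_zero h2 h2δ
    have h5 : 4 * δ * (B v (b v) + r * B x (b v) + r * (B v (b x) + r * δ)) = 0 := by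
      rw [hs] at h3 hr
      linear_combination (r * (2 * δ) + (B x (b v) + B v (b x))) * hr - h3
    have h6 := (mul_eq_zero.1 h5).resolve_left h44
    linear_combination h6
  -- two values
  have htwo : ∀ u', B u' (b u') = 0 ∨ B u' (b u') = δ := by
    intro u'
    by_cases hu' : u' = 0
    · left; rw [hu']; simp
    obtain ⟨-, c1, -, -, hc1, e1, -⟩ := htr u' hu'
    obtain ⟨-, c2, -, -, hc2, e2, -⟩ := htr x hx0
    obtain ⟨-, c3, -, -, hc3, e3, -⟩ := htr y0 hy00
    rw [← hδ] at e2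
    rw [hy0] at e3
    have hne : c2 ≠ c3 := by
      rintro rfl
      have : c' * δ = 0 := by linear_combination e2 - e3
      exact (mul_ne_zero hc' hx) this
    have hc : c1 = c3 ∨ c1 = c2 := by
      rcases hc1 with rfl | rfl <;> rcases hc2 with rfl | rfl <;> rcases hc3 with rfl | rfl <;> simp_all
    rcases hc with rfl | rfl
    · left
      have : c' * B u' (b u') = 0 := by linear_combination e1 - e3
      exact (mul_eq_zero.1 this).resolve_left hc'
    · right
      have : c' * (B u' (b u') - δ) = 0 := by linear_combination e1 - e2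
      exact sub_eq_zero.1 ((mul_eq_zero.1 this).resolve_left hc')
  -- `q_b = 0` on the hyperplane
  have hqH : ∀ v, B x (b v) + B v (b x) = 0 → B v (b v) = 0 := by
    intro v hv
    rcases htwo v with h3 | h3
    · exact h3
    exfalso
    have h4 : B (v + x) (b (v + x)) = 2 * δ := by
      simp only [map_add, LinearMap.add_apply]
      rw [h3, ← hδ]
      linear_combination hv
    rcases htwo (v + x) with h5 | h5
    · rw [h4] at h5
      exact h2δ h5
    · rw [h4] at h5
      have : δ = 0 := by linear_combination h5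
      exact hx this
  have hbbH : ∀ v, B x (b v) + B v (b x) = 0 → b (b v) = v := by
    intro v hv
    have h3 : ∀ y, B y (b v) + B v (b y) = 0 := by
      intro y
      obtain ⟨r, hr⟩ : ∃ r, r = (B x (b y) + B y (b x)) / (2 * δ) := ⟨_, rfl⟩
      have hr' : r * (2 * δ) = B x (b y) + B y (b x) := by rw [hr, div_mul_cancel₀ _ h2δ]
      have h4 : B x (b (y - r • x)) + B (y - r • x) (b x) = 0 := by
        simp only [map_sub, map_smul, LinearMap.sub_apply, LinearMap.smul_apply, smul_eq_mul]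
        rw [← hδ]
        linear_combination -hr'
      have h5 := hqH _ h4
      have h6 := hqH _ hv
      have h7 := hqH (v + (y - r • x)) (by
        rw [map_add b, map_add (B x), map_add B, LinearMap.add_apply]
        linear_combination h4 + hv)
      simp only [map_add, map_sub, map_smul, LinearMap.add_apply, LinearMap.sub_apply, LinearMap.smul_apply,
        smul_eq_mul] at h5 h7
      linear_combination h7 - h5 - h6 + r * hv
    have h4 : ∀ y, B (b v - b⁻¹ v) y = 0 := by
      intro y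
      rw [map_sub, LinearMap.sub_apply]
      have h5 := h3 y
      have h6 : B (b⁻¹ v) y = B v (b y) := by
        rw [adj (inv_mem H.hb), inv_inv]
      rw [h6, h.swap (b v) y]
      linear_combination -h5
    have h5 : b v = b⁻¹ v := sub_eq_zero.1 (h.nd _ h4)
    rw [h5]
    exact b.apply_symm_apply v
  -- the vector `w'`
  obtain ⟨w', hw'⟩ : ∃ w', w' = b x - b⁻¹ x := ⟨_, rfl⟩
  have hBw : ∀ v, B w' v = -(B x (b v) + B v (b x)) := by
    intro v
    have h6 : B (b⁻¹ x) v = B x (b v) := by rw [adj (inv_mem H.hb), inv_inv]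
    rw [hw', map_sub, LinearMap.sub_apply, h6, h.swap (b x) v]
    ring
  have hBx : B w' x = -(2 * δ) := by rw [hBw, ← hδ]; ring
  have hBx0 : B w' x ≠ 0 := by rw [hBx]; exact neg_ne_zero.2 h2δ
  have hw'0 : w' ≠ 0 := by
    intro h0
    rw [h0] at hBx0
    exact hBx0 (by simp)
  have F1 : ∀ v, B w' v = 0 → b (b v) = v := by
    intro v hv
    rw [hBw, neg_eq_zero] at hv
    exact hbbH v hv
  have F2 : ∀ v, b v - b⁻¹ v = (B w' v / B w' x) • w' := by
    intro v
    have h3 : B w' (v - (B w' v / B w' x) • x) = 0 := by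
      rw [map_sub, map_smul, smul_eq_mul, div_mul_cancel₀ _ hBx0, sub_self]
    have h4 := F1 _ h3
    have h5 : b (v - (B w' v / B w' x) • x) = b⁻¹ (v - (B w' v / B w' x) • x) := by
      change _ = b.symm _
      rw [LinearEquiv.eq_symm_apply, h4]
    rw [map_sub, map_sub, map_smul, map_smul] at h5
    obtain ⟨t, ht⟩ : ∃ t, t = B w' v / B w' x := ⟨_, rfl⟩
    rw [← ht] at h5 ⊢
    have h6 : b v = b⁻¹ v - t • b⁻¹ x + t • b x := by rw [← h5]; abel
    rw [h6, hw', smul_sub]
    abel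
  obtain ⟨m, hm⟩ : ∃ m : F, b w' = m • w' := by
    refine ⟨B w' (b x) / B w' x, ?_⟩
    rw [← F2 (b x)]
    rw [show b⁻¹ (b x) = x from b.symm_apply_apply x]
    conv_lhs => rw [hw']
    rw [map_sub, show b (b⁻¹ x) = x from b.apply_symm_apply x]
  have hmm : m * m = 1 := by
    have h3 := F1 w' (h.alt w')
    rw [hm, map_smul, hm, smul_smul] at h3
    have h4 : (m * m) • w' = (1 : F) • w' := by rw [h3, one_smul]
    exact smul_left_injective F hw'0 h4
  have hm0 : m ≠ 0 := left_ne_zero_of_mul_eq_one hmm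
  by_cases hex : ∃ y, y ≠ 0 ∧ B w' y = 0 ∧ b y = -m • y
  · obtain ⟨y, hy1, hy2, hy3⟩ := hex
    obtain ⟨g, hg, hgy⟩ := witt_one h hy1 hw0
    obtain ⟨c, -, -, h4, -⟩ := H.sgn hg
    have hgw : g⁻¹ w = y := by rw [← hgy]; exact g.symm_apply_apply y
    have h5 := h4 w (-m * l) hw0 (by rw [hgw, hy3, map_smul, hgy, map_smul, hww, smul_smul])
    have hgw' : g w' ≠ 0 := (LinearEquiv.map_ne_zero_iff g).2 hw'0
    have h6 := h4 (g w') (m * l) hgw' (by
      rw [show g⁻¹ (g w') = w' from g.symm_apply_apply w', hm, map_smul, map_smul, haw]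
      have h7 : B w (g w') = 0 := by
        rw [← hgy, hg, h.swap, hy2, neg_zero]
      rw [h7, mul_zero, zero_smul, add_zero, smul_smul])
    rw [← h6] at h5
    have h7 : 2 * (m * l) = 0 := by linear_combination -h5
    exact (mul_ne_zero h2 (mul_ne_zero hm0 hl0)) h7
  · push Not at hex
    have hinv : b⁻¹ w' = m • w' := by
      change b.symm w' = _
      rw [LinearEquiv.symm_apply_eq, map_smul, hm, smul_smul, hmm, one_smul]
    have hbH : ∀ v, B w' v = 0 → b v = m • v := by
      intro v hv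
      by_contra hne
      refine hex (b v - m • v) (sub_ne_zero.2 hne) ?_ ?_
      · rw [map_sub, map_smul, hv, smul_zero, sub_zero]
        have h3 := adj (inv_mem H.hb) w' v
        rw [inv_inv, hinv, map_smul, LinearMap.smul_apply, hv, smul_zero] at h3
        exact h3.symm
      · rw [map_sub, map_smul, F1 v hv, smul_sub, smul_smul]
        have : -m * m = -1 := by linear_combination -hmm
        rw [this]
        module
    have hconst : ∀ u' : V, u' ≠ 0 → l * T + c' * B u' (b u') = m * l * N := by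
      intro u' hu'
      obtain ⟨g, c, hg, -, -, h3, h4⟩ := htr u' hu'
      have hgw' : g w' ≠ 0 := (LinearEquiv.map_ne_zero_iff g).2 hw'0
      obtain ⟨v, hv0, hv1, hv2⟩ := exists_two_perp h hn4 hw0 hgw'
      have h5 : B w' (g⁻¹ v) = 0 := by
        have h6 := hg w' (g⁻¹ v)
        rw [show g (g⁻¹ v) = v from g.apply_symm_apply v, hv2] at h6
        exact h6.symm
      have h6 := h4 v (m * l) hv0 (by
        rw [hbH _ h5, map_smul, show g (g⁻¹ v) = v from g.apply_symm_apply v, map_smul, haw, hv1, mul_zero, zero_smul,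
          add_zero, smul_smul])
      rw [h6]
      exact h3
    have e1 := hconst x hx0
    have e2 := hconst y0 hy00
    rw [← hδ] at e1
    rw [hy0] at e2
    have : c' * δ = 0 := by linear_combination e1 - e2
    exact (mul_ne_zero hc' hx) this

/-- **odd characteristic** -/
theorem odd_main [Nontrivial V] (h : IsSp B) (hn4 : 4 ≤ finrank F V) (H : Hp B p a b) (h2 : (2 : F) ≠ 0) : False := by
  by_cases hqb : ∀ v, B v (b v) = 0
  · exact odd_two h hn4 H h2 hqb
  by_cases hqa : ∀ v, B v (a v) = 0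
  · exact odd_two h hn4 H.symm h2 hqa
  push Not at hqa hqb
  obtain ⟨u, hu⟩ := hqa
  obtain ⟨x, hx⟩ := hqb
  rcases H.dich h hn4 h2 with h3 | h3
  · exact odd_one h hn4 H h2 h3 hx hu
  · exact odd_one h hn4 H.symm h2 h3 hu hx

end odd

end Cfsg.Agent.H144.AH
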