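import Cfsg.Agent.H144.AH.Base

/-!
# Traces of products of isometries of a symplectic space (helper144, S2451)

* `Hp B p a b` : all the products of `a` and a conjugate of `b` are `±` an element of `p`-power order;
* `Hp.sgn` : the sign, the trace, the eigenvalues of such a product;
* `tr_id` : the trace of `a h b h⁻¹`, `h = t_u^s t_v^t` a product of two commuting transvections;
* `Hp.quad` : the resulting quadratic polynomial (helper445).
-/

set_option autoImplicit false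
set_option linter.unusedSectionVars false

namespace Cfsg.Agent.H144.AH

open Module Cfsg Cfsg.Agent.H955 Cfsg.Agent.H105.Sz Cfsg.Agent.H105.SzSp

section tr

variable {F V : Type*} [Field F] [AddCommGroup V] [Module F V] [FiniteDimensional F V]
  {B : LinearMap.BilinForm F V}

/-- all the products of `a` and the conjugates of `b` are `±` an element of `p`-power order -/
structure Hp (B : LinearMap.BilinForm F V) (p : ℕ) (a b : V ≃ₗ[F] V) : Prop where
  ha : a ∈ IsoB B
  hb : b ∈ IsoB B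
  na : ¬ Scalar a
  nb : ¬ Scalar b
  uni : ∀ g ∈ IsoB B, ∃ c : F, (c = 1 ∨ c = -1) ∧ ∃ k : ℕ, ∀ v, ((a * (g * b * g⁻¹)) ^ p ^ k) v = c • v

theorem Hp.symm {p : ℕ} {a b : V ≃ₗ[F] V} (H : Hp B p a b) : Hp B p b a where
  ha := H.hb
  hb := H.ha
  na := H.nb
  nb := H.na
  uni := by
    intro g hg
    obtain ⟨c, hc, k, hk⟩ := H.uni g⁻¹ (inv_mem hg)
    refine ⟨c, hc, k, fun v => ?_⟩
    have e : b * (g * a * g⁻¹) = (g * a⁻¹) * (a * (g⁻¹ * b * g⁻¹⁻¹)) * (g * a⁻¹)⁻¹ := by group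
    rw [e, conj_pow, LinearEquiv.mul_apply, LinearEquiv.mul_apply, hk, map_smul]
    congr 1
    exact (g * a⁻¹).apply_symm_apply v

/-- the pairs spanning a totally isotropic plane -/
def Tp (B : LinearMap.BilinForm F V) (u v : V) : Prop := LinearIndependent F ![u, v] ∧ B u v = 0

omit [FiniteDimensional F V] in
theorem Tp.symm (h : IsSp B) {u v : V} (hT : Tp B u v) : Tp B v u := by
  refine ⟨?_, by rw [h.swap, hT.2, neg_zero]⟩
  have h1 := hT.1
  rw [LinearIndependent.pair_iff] at h1 ⊢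
  intro s t hst
  have := h1 t s (by rw [← hst]; abel)
  exact ⟨this.2, this.1⟩

omit [FiniteDimensional F V] in
theorem Tp.add (h : IsSp B) {u v : V} (hT : Tp B u v) (s : F) : Tp B u (v + s • u) := by
  refine ⟨?_, by rw [map_add, map_smul, h.alt, hT.2, smul_zero, add_zero]⟩
  have h1 := hT.1
  rw [LinearIndependent.pair_iff] at h1 ⊢
  intro x y hxy
  have := h1 (x + y * s) y (by rw [← hxy]; module)
  refine ⟨?_, this.2⟩
  have h2 := this.1
  rw [this.2, zero_mul, add_zero] at h2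
  exact h2

theorem exists_Tp (h : IsSp B) (hn : 4 ≤ finrank F V) {u : V} (hu : u ≠ 0) : ∃ v, Tp B u v := by
  obtain ⟨w, hw, hw'⟩ := exists_notMem (W := Submodule.span F {u}) (W' := LinearMap.ker (B u)) (by
    have h1 := finrank_span_single_le (F := F) u
    have h2 := finrank_ker h hu
    omega)
  exact ⟨w, indep_of_notMem hu hw', hw⟩

/-- a vector orthogonal to all the vectors `w ⊥ v` is a multiple of `v` -/
theorem mul_of_perp (h : IsSp B) (hn : 4 ≤ finrank F V) {v y : V} (hv : v ≠ 0)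
    (hy : ∀ w, Tp B v w → B w y = 0) : ∃ c : F, y = c • v := by
  have key : ∀ w, B v w = 0 → B w y = 0 := by
    intro w hw
    by_cases hi : LinearIndependent F ![v, w]
    · exact hy w ⟨hi, hw⟩
    · rw [LinearIndependent.pair_iff' hv] at hi
      push Not at hi
      obtain ⟨s, rfl⟩ := hi
      obtain ⟨w', hw'⟩ := exists_Tp h hn hv
      have h1 := hy w' hw'
      have h2 := hy _ (hw'.add h s)
      rw [map_add, LinearMap.add_apply, h1, zero_add] at h2
      exact h2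
  obtain ⟨e, he⟩ : ∃ e, B v e ≠ 0 := by
    by_contra hcon
    push Not at hcon
    exact hv (h.nd v hcon)
  refine ⟨B y e / B v e, ?_⟩
  have h1 : ∀ x, B (y - (B y e / B v e) • v) x = 0 := by
    intro x
    have h2 := key (x - (B v x / B v e) • e) (by rw [map_sub, map_smul, smul_eq_mul, div_mul_cancel₀ _ he, sub_self])
    rw [h.swap, map_sub, map_smul, smul_eq_mul, neg_eq_zero] at h2
    rw [map_sub, map_smul, LinearMap.sub_apply, LinearMap.smul_apply, smul_eq_mul]
    linear_combination h2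
  exact sub_eq_zero.1 (h.nd _ h1)

/-- the adjoint of an isometry -/
theorem adj {a : V ≃ₗ[F] V} (ha : a ∈ IsoB B) (u v : V) : B (a u) v = B u (a⁻¹ v) := by
  have h1 := ha u (a⁻¹ v)
  have h2 : a (a⁻¹ v) = v := a.apply_symm_apply v
  rw [h2] at h1
  exact h1

/-- `(u, a v) = (v, a u)` for all `u ⊥ v` : then `a + a⁻¹` is a scalar. -/
theorem quad_of_k (h : IsSp B) (hn : 4 ≤ finrank F V) {a : V ≃ₗ[F] V} (ha : a ∈ IsoB B)
    (hk : ∀ u v, Tp B u v → B u (a v) = B v (a u)) : ∃ κ : F, ∀ v, a v + a⁻¹ v = κ • v := by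
  refine scalar_of_all' (a := (a : V →ₗ[F] V) + ((a⁻¹ : V ≃ₗ[F] V) : V →ₗ[F] V)) fun v => ?_
  by_cases hv : v = 0
  · exact ⟨0, by rw [hv]; simp⟩
  refine mul_of_perp h hn hv fun w hw => ?_
  change B w (a v + a⁻¹ v) = 0
  rw [map_add, ← adj ha w v, h.swap (a w) v, hk v w hw, add_neg_cancel]

/-! ### The sign -/

variable {p : ℕ} [hp : Fact p.Prime] [CharP F p]

omit [FiniteDimensional F V] in
theorem pow_eig {f : V →ₗ[F] V} {κ : F} {v : V} (hv : f v = κ • v) (n : ℕ) : (f ^ n) v = κ ^ n • v := by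
  induction n with
  | zero => simp
  | succ n ih => rw [pow_succ, Module.End.mul_apply, hv, map_smul, ih, smul_smul, pow_succ, mul_comm]

omit [FiniteDimensional F V] in
theorem coe_pow' (z : V ≃ₗ[F] V) (n : ℕ) : ((z ^ n : V ≃ₗ[F] V) : V →ₗ[F] V) = (z : V →ₗ[F] V) ^ n := by
  induction n with
  | zero => rfl
  | succ n ih =>
    rw [pow_succ, pow_succ, ← ih]
    rfl

theorem frob_inj {x y : F} {k : ℕ} (hxy : x ^ p ^ k = y ^ p ^ k) : x = y := by
  have h1 : (x - y) ^ p ^ k = 0 := by rw [sub_pow_char_pow, hxy, sub_self]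
  exact sub_eq_zero.1 (pow_eq_zero_iff (pow_ne_zero _ hp.out.ne_zero) |>.1 h1)

theorem sign_pow {c : F} (hc : c = 1 ∨ c = -1) (k : ℕ) : c ^ p ^ k = c := by
  rcases hc with rfl | rfl
  · exact one_pow _
  · exact neg_one_pow_char_pow F p k

/-- **the sign of a product** -/
theorem sgn_of_pow [Nontrivial V] {z : V ≃ₗ[F] V} {c : F} (hc : c = 1 ∨ c = -1) {k : ℕ}
    (hk : ∀ v, (z ^ p ^ k) v = c • v) :
    LinearMap.trace F V z = c * (finrank F V : F) ∧
      (∀ (u : V) (μ : F), u ≠ 0 → z u = μ • u → μ = c) ∧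
      (∀ (u : V) (κ : F), u ≠ 0 → z u + z⁻¹ u = κ • u → κ = 2 * c) := by
  have hchar : CharP (Module.End F V) p :=
    charP_of_injective_algebraMap (R := F) (A := Module.End F V) (algebraMap F (Module.End F V)).injective p
  have hz : (z : Module.End F V) ^ p ^ k = algebraMap F (Module.End F V) c := by
    ext v
    rw [← coe_pow']
    exact hk v
  have hcc : c * c = 1 := by rcases hc with rfl | rfl <;> ring
  refine ⟨?_, ?_, ?_⟩
  · have h1 : IsNilpotent ((z : Module.End F V) - algebraMap F (Module.End F V) c) := by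
      refine ⟨p ^ k, ?_⟩
      rw [sub_pow_char_pow_of_commute p k (Algebra.commutes c (z : Module.End F V)).symm, hz, ← map_pow, sign_pow hc,
        sub_self]
    have h2 := (LinearMap.isNilpotent_trace_of_isNilpotent h1).eq_zero
    rw [map_sub, sub_eq_zero] at h2
    rw [h2]
    have h3 : algebraMap F (Module.End F V) c = c • LinearMap.id := rfl
    rw [h3, map_smul, LinearMap.trace_id, smul_eq_mul]
  · intro u μ hu hμ
    have h1 := pow_eig (f := (z : V →ₗ[F] V)) hμ (p ^ k)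
    rw [hz] at h1
    have h2 : c = μ ^ p ^ k := smul_left_injective F hu h1
    rw [← sign_pow (p := p) hc k] at h2
    exact (frob_inj h2).symm
  · intro u κ hu hκ
    have hcom : Commute (z : Module.End F V) ((z⁻¹ : V ≃ₗ[F] V) : Module.End F V) := by
      ext v
      change z (z⁻¹ v) = z⁻¹ (z v)
      rw [show z (z⁻¹ v) = v from z.apply_symm_apply v, show z⁻¹ (z v) = v from z.symm_apply_apply v]
    have hzi : ((z⁻¹ : V ≃ₗ[F] V) : Module.End F V) ^ p ^ k = algebraMap F (Module.End F V) c := by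
      rw [← coe_pow']
      ext v
      change (z⁻¹ ^ p ^ k) v = c • v
      rw [inv_pow]
      change (z ^ p ^ k).symm v = c • v
      rw [LinearEquiv.symm_apply_eq, hk, smul_smul, hcc, one_smul]
    have h1 := pow_eig (f := (z : Module.End F V) + ((z⁻¹ : V ≃ₗ[F] V) : Module.End F V)) (v := u) hκ (p ^ k)
    rw [add_pow_char_pow_of_commute p k hcom, hz, hzi] at h1
    have h2 : (c + c) • u = κ ^ p ^ k • u := by
      rw [← h1, add_smul]
      rfl
    have h3 : c + c = κ ^ p ^ k := smul_left_injective F hu h2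
    have h4 : (2 * c) ^ p ^ k = κ ^ p ^ k := by
      rw [← h3, two_mul, add_pow_char_pow, sign_pow hc]
    exact (frob_inj h4).symm

/-- the sign -/
theorem Hp.sgn [Nontrivial V] {a b : V ≃ₗ[F] V} (H : Hp B p a b) {g : V ≃ₗ[F] V} (hg : g ∈ IsoB B) :
    ∃ c : F, (c = 1 ∨ c = -1) ∧
      LinearMap.trace F V ((a : V →ₗ[F] V) ∘ₗ ((g * b * g⁻¹ : V ≃ₗ[F] V) : V →ₗ[F] V)) = c * (finrank F V : F) ∧
      (∀ (u : V) (μ : F), u ≠ 0 → a (g (b (g⁻¹ u))) = μ • u → μ = c) ∧
      (∀ (u : V) (κ : F), u ≠ 0 → a (g (b (g⁻¹ u))) + g (b⁻¹ (g⁻¹ (a⁻¹ u))) = κ • u → κ = 2 * c) := by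
  obtain ⟨c, hc, k, hk⟩ := H.uni g hg
  obtain ⟨h1, h2, h3⟩ := sgn_of_pow hc hk
  exact ⟨c, hc, h1, h2, h3⟩

/-! ### The trace -/

/-- **the trace of `a h b h⁻¹`, `h = t_u^s t_v^t`** -/
theorem tr_id (h : IsSp B) (a b : V →ₗ[F] V) {u v : V} (huv : B u v = 0) (s t : F) :
    LinearMap.trace F V (a ∘ₗ ((tv h u s * tv h v t : V ≃ₗ[F] V) : V →ₗ[F] V) ∘ₗ b ∘ₗ
        (((tv h u s * tv h v t)⁻¹ : V ≃ₗ[F] V) : V →ₗ[F] V)) =
      LinearMap.trace F V (a ∘ₗ b) + s * (B u (b (a u)) - B u (a (b u))) + t * (B v (b (a v)) - B v (a (b v))) -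
        (s * s * (B u (b u) * B u (a u)) + s * t * (B v (a u) * B u (b v) + B u (a v) * B v (b u)) +
          t * t * (B v (b v) * B v (a v))) := by
  have hvu : B v u = 0 := by rw [h.swap, huv, neg_zero]
  have e : a ∘ₗ ((tv h u s * tv h v t : V ≃ₗ[F] V) : V →ₗ[F] V) ∘ₗ b ∘ₗ
        (((tv h u s * tv h v t)⁻¹ : V ≃ₗ[F] V) : V →ₗ[F] V) =
      a ∘ₗ b + s • ((B u ∘ₗ b).smulRight (a u)) + t • ((B v ∘ₗ b).smulRight (a v)) -
        s • ((B u).smulRight (a (b u))) - t • ((B v).smulRight (a (b v))) -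
        (s * s * B u (b u)) • ((B u).smulRight (a u)) - (s * t * B u (b v)) • ((B v).smulRight (a u)) -
        (t * s * B v (b u)) • ((B u).smulRight (a v)) - (t * t * B v (b v)) • ((B v).smulRight (a v)) := by
    ext x
    have h1 : ((tv h u s * tv h v t)⁻¹ : V ≃ₗ[F] V) x = x - s • B u x • u - t • B v x • v := by
      rw [mul_inv_rev]
      change (tv h v t)⁻¹ ((tv h u s)⁻¹ x) = _
      rw [tv_inv_apply, tv_inv_apply, map_sub, map_smul, map_smul, hvu, smul_zero, smul_zero, sub_zero]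
    have h2 : ∀ y, (tv h u s * tv h v t : V ≃ₗ[F] V) y = y + s • B u y • u + t • B v y • v := by
      intro y
      change tv h u s (tv h v t y) = _
      rw [tv_apply, tv_apply, map_add, map_smul, map_smul, huv, smul_zero, smul_zero, add_zero]
      abel
    change a ((tv h u s * tv h v t : V ≃ₗ[F] V) (b (((tv h u s * tv h v t)⁻¹ : V ≃ₗ[F] V) x))) = _
    rw [h1, h2]
    simp only [LinearMap.comp_apply, LinearMap.add_apply, LinearMap.sub_apply, LinearMap.smul_apply,
      LinearMap.smulRight_apply, map_sub, map_add, map_smul]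
    simp only [smul_eq_mul]
    module
  rw [e]
  simp only [map_sub, map_add, map_smul, LinearMap.trace_smulRight, LinearMap.comp_apply, smul_eq_mul]
  ring

/-- **The quadratic polynomial of two totally isotropic pairs** -/
theorem Hp.quad [Nontrivial V] {a b : V ≃ₗ[F] V} (h : IsSp B) (H : Hp B p a b) {u v x y : V} (huv : Tp B u v)
    (hxy : Tp B x y) : ∃ c0 c1 c2 : F, ∀ s t : F, ∃ c : F, (c = 1 ∨ c = -1) ∧
      c0 + s * c1 + t * c2 - (s * s * (B x (b x) * B u (a u)) + s * t * (B v (a u) * B x (b y) + B u (a v) * B y (b x)) +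
          t * t * (B y (b y) * B v (a v))) = c * (finrank F V : F) := by
  obtain ⟨g, hg, hgx, hgy⟩ := witt_pair h hxy.1 huv.1 (by rw [huv.2, hxy.2])
  have hgx' : g⁻¹ u = x := by rw [← hgx]; exact g.symm_apply_apply x
  have hgy' : g⁻¹ v = y := by rw [← hgy]; exact g.symm_apply_apply y
  let b' : V ≃ₗ[F] V := g * b * g⁻¹
  have hb' : ∀ w, b' w = g (b (g⁻¹ w)) := fun _ => rfl
  have e11 : B u (b' u) = B x (b x) := by rw [hb', hgx', ← hgx, hg]
  have e12 : B u (b' v) = B x (b y) := by rw [hb', hgy', ← hgx, hg]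
  have e21 : B v (b' u) = B y (b x) := by rw [hb', hgx', ← hgy, hg]
  have e22 : B v (b' v) = B y (b y) := by rw [hb', hgy', ← hgy, hg]
  refine ⟨LinearMap.trace F V ((a : V →ₗ[F] V) ∘ₗ (b' : V →ₗ[F] V)), B u (b' (a u)) - B u (a (b' u)),
    B v (b' (a v)) - B v (a (b' v)), fun s t => ?_⟩
  obtain ⟨c, hc, h1, -, -⟩ := H.sgn (g := tv h u s * tv h v t * g)
    (mul_mem (mul_mem (tv_mem h u s) (tv_mem h v t)) hg)
  refine ⟨c, hc, ?_⟩
  rw [← h1]
  have h2 := tr_id h (a : V →ₗ[F] V) (b' : V →ₗ[F] V) huv.2 s t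
  have h3 : (tv h u s * tv h v t * g * b * (tv h u s * tv h v t * g)⁻¹ : V ≃ₗ[F] V) =
      (tv h u s * tv h v t) * b' * (tv h u s * tv h v t)⁻¹ := by
    change _ = (tv h u s * tv h v t) * (g * b * g⁻¹) * (tv h u s * tv h v t)⁻¹
    group
  rw [h3]
  have h4 : (a : V →ₗ[F] V) ∘ₗ (((tv h u s * tv h v t) * b' * (tv h u s * tv h v t)⁻¹ : V ≃ₗ[F] V) : V →ₗ[F] V) =
      (a : V →ₗ[F] V) ∘ₗ ((tv h u s * tv h v t : V ≃ₗ[F] V) : V →ₗ[F] V) ∘ₗ (b' : V →ₗ[F] V) ∘ₗ
        (((tv h u s * tv h v t)⁻¹ : V ≃ₗ[F] V) : V →ₗ[F] V) := rfl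
  rw [h4, h2]
  simp only [LinearEquiv.coe_coe]
  rw [e11, e12, e21, e22]

end tr

end Cfsg.Agent.H144.AH
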